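import Cfsg.Agent.H756.HM.Stmts
import Cfsg.Agent.H802.FusNorm

/-!
# S5175: first facts on the configuration `Conf` (helper55)

`V' = cj x V`, `Z = V ⊓ V'`, `D = fixS V E = C_V(E)`, `q = |K|`.
-/

set_option autoImplicit false

namespace Cfsg.Agent.H55.HM

open Cfsg Cfsg.FusionSystem Cfsg.Agent.H756.HM Cfsg.Agent.H802

variable {Ω : Type*} [Group Ω] {S : Subgroup Ω}

theorem mem_cj {x y : Ω} {V : Subgroup Ω} : y ∈ cj x V ↔ x⁻¹ * y * x ∈ V := by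
  constructor
  · rintro ⟨v, hv, rfl⟩
    have e : x⁻¹ * (MulAut.conj x).toMonoidHom v * x = v := by
      show x⁻¹ * (x * v * x⁻¹) * x = v
      group
    rw [e]
    exact hv
  · intro h
    refine ⟨_, h, ?_⟩
    show x * (x⁻¹ * y * x) * x⁻¹ = y
    group

theorem conj_mem_cj {x y : Ω} {V : Subgroup Ω} (h : y ∈ V) : x * y * x⁻¹ ∈ cj x V := ⟨y, h, rfl⟩

theorem card_cj (x : Ω) (V : Subgroup Ω) : Nat.card (cj x V) = Nat.card V :=
  (Nat.card_congr (V.equivMapOfInjective _ (MulAut.conj x).injective).toEquiv).symm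

theorem mem_fixS {V : Subgroup Ω} {E : Subgroup (MulAut V)} {v : Ω} (hv : v ∈ V) :
    v ∈ fixS V E ↔ ∀ e ∈ E, e ⟨v, hv⟩ = ⟨v, hv⟩ := by
  unfold fixS
  rw [Subgroup.mem_map]
  constructor
  · rintro ⟨w, hw, rfl⟩
    exact hw
  · intro h
    exact ⟨⟨v, hv⟩, h, rfl⟩

theorem fixS_le (V : Subgroup Ω) (E : Subgroup (MulAut V)) : fixS V E ≤ V := by
  rintro _ ⟨w, _, rfl⟩
  exact w.2

theorem comS_le (V : Subgroup Ω) (E : Subgroup (MulAut V)) : comS V E ≤ V := by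
  rintro _ ⟨w, _, rfl⟩
  exact w.2

theorem mem_comS {V : Subgroup Ω} {E : Subgroup (MulAut V)} (v : V) {e : MulAut V} (he : e ∈ E) :
    ((v⁻¹ * e v : V) : Ω) ∈ comS V E :=
  ⟨v⁻¹ * e v, Subgroup.subset_closure ⟨v, e, he, rfl⟩, rfl⟩

theorem comm_of_sq {G : Type*} [Group G] {a b : G} (ha : a ^ 2 = 1) (hb : b ^ 2 = 1) (hab : (a * b) ^ 2 = 1) :
    a * b = b * a := by
  rw [pow_two] at *
  have h1 : a⁻¹ = a := inv_eq_of_mul_eq_one_left ha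
  have h2 : b⁻¹ = b := inv_eq_of_mul_eq_one_left hb
  have h3 : (a * b)⁻¹ = a * b := inv_eq_of_mul_eq_one_left hab
  rw [mul_inv_rev, h1, h2] at h3
  exact h3.symm

section conf

variable {F : FusionSystem S} {K : Type} [Field K] [Fintype K] {V T : Subgroup Ω} {x : Ω} (c : Conf F K V T x)

include c

theorem V_le_T : V ≤ T := by
  intro v hv
  rw [← c.nor]
  exact ⟨c.V_le hv, Subgroup.le_normalizer hv⟩

theorem T_le_S : T ≤ S := by
  rw [← c.nor]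
  exact inf_le_left

theorem T_le_N : T ≤ Subgroup.normalizer (V : Set Ω) := by
  rw [← c.nor]
  exact inf_le_right

theorem conj_T {t : Ω} (ht : t ∈ T) : x * t * x⁻¹ ∈ T := (Subgroup.mem_normalizer_iff.1 c.x_nor t).1 ht

theorem conj_inv_T {t : Ω} (ht : t ∈ T) : x⁻¹ * t * x ∈ T := by
  have h1 := (Subgroup.mem_normalizer_iff.1 (inv_mem c.x_nor) t).1 ht
  rwa [inv_inv] at h1

theorem conj_V {t v : Ω} (ht : t ∈ T) (hv : v ∈ V) : t * v * t⁻¹ ∈ V :=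
  (Subgroup.mem_normalizer_iff.1 (T_le_N c ht) v).1 hv

theorem conj_inv_V {t v : Ω} (ht : t ∈ T) (hv : v ∈ V) : t⁻¹ * v * t ∈ V := by
  have := conj_V c (T.inv_mem ht) hv
  rwa [inv_inv] at this

theorem V'_le_T : cj x V ≤ T := by
  intro y hy
  have h1 := conj_T c (V_le_T c (mem_cj.1 hy))
  have e : x * (x⁻¹ * y * x) * x⁻¹ = y := by group
  rwa [e] at h1

/-- `x` maps `V'` to `V` -/
theorem conj_V' {g : Ω} (hg : g ∈ cj x V) : x * g * x⁻¹ ∈ V := by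
  have h1 := conj_V c c.x_sq (mem_cj.1 hg)
  have e : x ^ 2 * (x⁻¹ * g * x) * (x ^ 2)⁻¹ = x * g * x⁻¹ := by rw [pow_two]; group
  rwa [e] at h1

/-- `x⁻¹` maps `V` to `V'` -/
theorem conj_inv_mem_V' {v : Ω} (hv : v ∈ V) : x⁻¹ * v * x ∈ cj x V := by
  rw [mem_cj]
  have h1 := conj_inv_V c c.x_sq hv
  have e : (x ^ 2)⁻¹ * v * x ^ 2 = x⁻¹ * (x⁻¹ * v * x) * x := by rw [pow_two]; group
  rwa [e] at h1

theorem conj_V'_T {t g : Ω} (ht : t ∈ T) (hg : g ∈ cj x V) : t * g * t⁻¹ ∈ cj x V := by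
  rw [mem_cj] at *
  have h1 := conj_V c (conj_inv_T c ht) hg
  have e : x⁻¹ * t * x * (x⁻¹ * g * x) * (x⁻¹ * t * x)⁻¹ = x⁻¹ * (t * g * t⁻¹) * x := by group
  rwa [e] at h1

theorem comm_V {v w : Ω} (hv : v ∈ V) (hw : w ∈ V) : v * w = w * v :=
  comm_of_sq (c.el v hv) (c.el w hw) (c.el _ (V.mul_mem hv hw))

theorem sq_V' {g : Ω} (hg : g ∈ cj x V) : g ^ 2 = 1 := by
  have h1 := c.el _ (mem_cj.1 hg)
  have e : (x⁻¹ * g * x) ^ 2 = x⁻¹ * g ^ 2 * x := by rw [pow_two, pow_two]; group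
  rw [e] at h1
  have h2 : x * (x⁻¹ * g ^ 2 * x) * x⁻¹ = x * 1 * x⁻¹ := by rw [h1]
  have e2 : x * (x⁻¹ * g ^ 2 * x) * x⁻¹ = g ^ 2 := by group
  rw [e2] at h2
  rw [h2]
  group

theorem comm_V' {v w : Ω} (hv : v ∈ cj x V) (hw : w ∈ cj x V) : v * w = w * v :=
  comm_of_sq (sq_V' c hv) (sq_V' c hw) (sq_V' c ((cj x V).mul_mem hv hw))

theorem mem_V_of_comm {s : Ω} (hs : s ∈ S) (h : ∀ v ∈ V, v * s = s * v) : s ∈ V := by
  rw [← c.cent]
  exact ⟨hs, Subgroup.mem_centralizer_iff.2 h⟩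

theorem mem_V'_of_comm {s : Ω} (hs : s ∈ S) (h : ∀ v ∈ cj x V, v * s = s * v) : s ∈ cj x V := by
  rw [mem_cj]
  apply mem_V_of_comm c (S.mul_mem (S.mul_mem (S.inv_mem c.x_mem) hs) c.x_mem)
  intro v hv
  have h1 := h _ (conj_mem_cj hv)
  calc v * (x⁻¹ * s * x) = x⁻¹ * (x * v * x⁻¹ * s) * x := by group
    _ = x⁻¹ * (s * (x * v * x⁻¹)) * x := by rw [h1]
    _ = x⁻¹ * s * x * v := by group

/-- conjugation by `g ∈ V'` is in `E` -/
theorem exists_E {g : Ω} (hg : g ∈ cj x V) : ∃ e ∈ autInducedBy (cj x V) V, e ∈ c.E ∧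
    ∀ v : V, ((e v : V) : Ω) = g * v * g⁻¹ := by
  obtain ⟨α, hα⟩ := exists_conjAut (T_le_N c (V'_le_T c hg))
  have h1 : α ∈ autInducedBy (cj x V) V := (mem_autInducedBy_iff _ _ _).2 ⟨g, hg, hα⟩
  exact ⟨α, h1, c.A_le h1, hα⟩

theorem D_le : fixS V c.E ≤ V ⊓ cj x V := by
  intro d hd
  have hdV := fixS_le V c.E hd
  refine ⟨hdV, mem_V'_of_comm c (c.V_le hdV) ?_⟩
  intro g hg
  obtain ⟨e, -, he, h1⟩ := exists_E c hg
  have h2 := (mem_fixS hdV).1 hd e he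
  have h3 := h1 ⟨d, hdV⟩
  rw [h2] at h3
  have h4 : d = g * d * g⁻¹ := h3
  calc g * d = g * d * g⁻¹ * g := by group
    _ = d * g := by rw [← h4]

theorem card_V' : Fintype.card K * Nat.card ↥(V ⊓ cj x V) = Nat.card V := by
  have h1 := card_autInducedBy_mul (cj x V) V
  have h2 : centralizerIn (cj x V) V = V ⊓ cj x V := by
    apply le_antisymm
    · intro g hg
      exact ⟨mem_V_of_comm c (T_le_S c (V'_le_T c hg.1)) (Subgroup.mem_centralizer_iff.1 hg.2), hg.1⟩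
    · intro g hg
      exact ⟨hg.2, Subgroup.mem_centralizer_iff.2 fun v hv => comm_V c hv hg.1⟩
  have h3 : normalizerIn (cj x V) V = cj x V :=
    inf_eq_left.2 ((V'_le_T c).trans (T_le_N c))
  rw [h2, h3, c.A_card, card_cj] at h1
  exact h1

end conf

end Cfsg.Agent.H55.HM
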