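import Cfsg.Agent.H55.HM.ConfBasic

/-!
# S5175: coordinates for the configuration `Conf` (helper55)
-/

set_option autoImplicit false

namespace Cfsg.Agent.H55.HM

open Cfsg Cfsg.FusionSystem Cfsg.Agent.H756.HM Cfsg.Agent.H802
open Matrix

variable {Ω : Type*} [Group Ω] {S : Subgroup Ω}

/-- a matrix of `SL₂` taking a nonzero vector to the first basis vector -/
theorem exists_sl_vec {K : Type*} [Field K] (u : Fin 2 → K) (hu : u ≠ 0) :
    ∃ M : Matrix.SpecialLinearGroup (Fin 2) K, (M : Matrix (Fin 2) (Fin 2) K).mulVec u = ![1, 0] := by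
  by_cases h0 : u 0 = 0
  · have h1 : u 1 ≠ 0 := by
      intro h1
      apply hu
      funext i
      fin_cases i
      · exact h0
      · exact h1
    refine ⟨⟨!![0, (u 1)⁻¹; -(u 1), 0], ?_⟩, ?_⟩
    · rw [Matrix.det_fin_two_of]
      field_simp
      ring
    · show (!![0, (u 1)⁻¹; -(u 1), 0] : Matrix (Fin 2) (Fin 2) K).mulVec u = _
      funext i
      fin_cases i
      · simp [Matrix.mulVec, dotProduct, Fin.sum_univ_two, h1]
      · simp [Matrix.mulVec, dotProduct, Fin.sum_univ_two, h0]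
  · refine ⟨⟨!![(u 0)⁻¹, 0; -(u 1), u 0], ?_⟩, ?_⟩
    · rw [Matrix.det_fin_two_of]
      field_simp
      ring
    · show (!![(u 0)⁻¹, 0; -(u 1), u 0] : Matrix (Fin 2) (Fin 2) K).mulVec u = _
      funext i
      fin_cases i
      · simp [Matrix.mulVec, dotProduct, Fin.sum_univ_two, h0]
      · simp [Matrix.mulVec, dotProduct, Fin.sum_univ_two]
        ring

/-- additive coordinate of a hom to `K²` -/
def coordHom {G K : Type*} [Group G] [Field K] (ψ : G →* Multiplicative (Fin 2 → K)) (i : Fin 2) :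
    G →* Multiplicative K where
  toFun v := Multiplicative.ofAdd (Multiplicative.toAdd (ψ v) i)
  map_one' := by rw [map_one]; rfl
  map_mul' a b := by rw [map_mul]; rfl

/-- The coordinates of a configuration -/
structure Coord {F : FusionSystem S} {K : Type} [Field K] [Fintype K] {V T : Subgroup Ω} {x : Ω}
    (c : Conf F K V T x) where
  ρ : c.E ≃* Matrix.SpecialLinearGroup (Fin 2) K
  ψ : V →* Multiplicative (Fin 2 → K)
  ψ_surj : Function.Surjective ψ
  ψ_ker : ∀ v : V, ψ v = 1 ↔ (v : Ω) ∈ fixS V c.E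
  ψ_eq : ∀ (e : c.E) (v : V), Multiplicative.toAdd (ψ ((e : MulAut V) v)) =
    ((ρ e : Matrix.SpecialLinearGroup (Fin 2) K) : Matrix (Fin 2) (Fin 2) K).mulVec (Multiplicative.toAdd (ψ v))
  mem_V' : ∀ v : V, (v : Ω) ∈ cj x V ↔ Multiplicative.toAdd (ψ v) 1 = 0
  mem_A : ∀ e : c.E, (e : MulAut V) ∈ autInducedBy (cj x V) V ↔
    (ρ e : Matrix (Fin 2) (Fin 2) K) 0 0 = 1 ∧ (ρ e : Matrix (Fin 2) (Fin 2) K) 1 0 = 0

section conf

variable {F : FusionSystem S} {K : Type} [Field K] [Fintype K] {V T : Subgroup Ω} {x : Ω} (c : Conf F K V T x)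

theorem two_le_card (K : Type) [Field K] [Fintype K] : 2 ≤ Fintype.card K := Fintype.one_lt_card

include c

theorem finite_V [Finite S] : Finite V := finite_of_le c.V_le

theorem card_fix_mul : Fintype.card K ^ 2 * Nat.card (fixS V c.E) = Nat.card V := by
  have h1 : c.ψ.ker = (fixS V c.E).subgroupOf V := by
    ext v
    rw [MonoidHom.mem_ker, c.ψ_ker v, Subgroup.mem_subgroupOf]
  have h2 := c.ψ.ker.card_mul_index
  rw [Subgroup.index_ker, MonoidHom.range_eq_top.2 c.ψ_surj, h1] at h2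
  have h3 : Nat.card ((fixS V c.E).subgroupOf V) = Nat.card (fixS V c.E) :=
    Nat.card_congr (Subgroup.subgroupOfEquivOfLe (fixS_le V c.E)).toEquiv
  have h4 : Nat.card (⊤ : Subgroup (Multiplicative (Fin 2 → K))) = Fintype.card K ^ 2 := by
    rw [Subgroup.card_top]
    have h5 : Nat.card (Multiplicative (Fin 2 → K)) = Nat.card (Fin 2 → K) := rfl
    rw [h5, Nat.card_eq_fintype_card, Fintype.card_fun, Fintype.card_fin]
  rw [h3, h4] at h2
  rw [← h2, mul_comm]

theorem exists_Z_not_fix [Finite S] : ∃ z : V, (z : Ω) ∈ cj x V ∧ (z : Ω) ∉ fixS V c.E := by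
  by_contra hcon
  push Not at hcon
  have h1 : V ⊓ cj x V = fixS V c.E := by
    apply le_antisymm
    · intro z hz
      exact hcon ⟨z, hz.1⟩ hz.2
    · exact D_le c
  have h2 := card_V' c
  rw [h1, ← card_fix_mul c] at h2
  have := finite_V c
  have : Finite (fixS V c.E) := Finite.of_injective _ (Subgroup.inclusion_injective (fixS_le V c.E))
  have h3 : Fintype.card K = Fintype.card K ^ 2 := Nat.eq_of_mul_eq_mul_right Nat.card_pos h2
  have h4 := two_le_card K
  nlinarith [h3, h4]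

theorem exists_coord [Finite S] : Nonempty (Coord c) := by
  have := finite_V c
  obtain ⟨z, hz, hzD⟩ := exists_Z_not_fix c
  have hu : Multiplicative.toAdd (c.ψ z) ≠ 0 := by
    intro h
    exact hzD ((c.ψ_ker z).1 h)
  obtain ⟨M, hM⟩ := exists_sl_vec _ hu
  -- the new ψ
  let ψ' : V →* Multiplicative (Fin 2 → K) :=
    { toFun := fun v => Multiplicative.ofAdd ((M : Matrix (Fin 2) (Fin 2) K).mulVec (Multiplicative.toAdd (c.ψ v)))
      map_one' := by
        rw [map_one]
        show Multiplicative.ofAdd ((M : Matrix (Fin 2) (Fin 2) K).mulVec 0) = 1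
        rw [Matrix.mulVec_zero]
        rfl
      map_mul' := by
        intro a b
        rw [map_mul]
        show Multiplicative.ofAdd ((M : Matrix (Fin 2) (Fin 2) K).mulVec
          (Multiplicative.toAdd (c.ψ a) + Multiplicative.toAdd (c.ψ b))) = _
        rw [Matrix.mulVec_add]
        rfl }
  have hψ' : ∀ v, Multiplicative.toAdd (ψ' v) = (M : Matrix (Fin 2) (Fin 2) K).mulVec (Multiplicative.toAdd (c.ψ v)) :=
    fun _ => rfl
  let ρ' : c.E ≃* Matrix.SpecialLinearGroup (Fin 2) K := c.ρ.trans (MulAut.conj M)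
  have hρ' : ∀ e, ρ' e = M * c.ρ e * M⁻¹ := fun _ => rfl
  have hinvM : ((M⁻¹ : Matrix.SpecialLinearGroup (Fin 2) K) : Matrix (Fin 2) (Fin 2) K) * (M : Matrix (Fin 2) (Fin 2) K) = 1 := by
    rw [← Matrix.SpecialLinearGroup.coe_mul, inv_mul_cancel]
    rfl
  have hMinv : (M : Matrix (Fin 2) (Fin 2) K) * ((M⁻¹ : Matrix.SpecialLinearGroup (Fin 2) K) : Matrix (Fin 2) (Fin 2) K) = 1 := by
    rw [← Matrix.SpecialLinearGroup.coe_mul, mul_inv_cancel]
    rfl
  have hsurj : Function.Surjective ψ' := by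
    intro y
    obtain ⟨v, hv⟩ := c.ψ_surj (Multiplicative.ofAdd
      (((M⁻¹ : Matrix.SpecialLinearGroup (Fin 2) K) : Matrix (Fin 2) (Fin 2) K).mulVec (Multiplicative.toAdd y)))
    refine ⟨v, ?_⟩
    have h1 : Multiplicative.toAdd (ψ' v) = Multiplicative.toAdd y := by
      rw [hψ', hv]
      show (M : Matrix (Fin 2) (Fin 2) K).mulVec
        (((M⁻¹ : Matrix.SpecialLinearGroup (Fin 2) K) : Matrix (Fin 2) (Fin 2) K).mulVec (Multiplicative.toAdd y)) = _
      rw [Matrix.mulVec_mulVec, hMinv, Matrix.one_mulVec]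
    exact h1
  have hker : ∀ v : V, ψ' v = 1 ↔ (v : Ω) ∈ fixS V c.E := by
    intro v
    rw [← c.ψ_ker v]
    constructor
    · intro h
      have h1 : (M : Matrix (Fin 2) (Fin 2) K).mulVec (Multiplicative.toAdd (c.ψ v)) = 0 := h
      have h2 : ((M⁻¹ : Matrix.SpecialLinearGroup (Fin 2) K) : Matrix (Fin 2) (Fin 2) K).mulVec
          ((M : Matrix (Fin 2) (Fin 2) K).mulVec (Multiplicative.toAdd (c.ψ v))) = 0 := by
        rw [h1, Matrix.mulVec_zero]
      rw [Matrix.mulVec_mulVec, hinvM, Matrix.one_mulVec] at h2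
      exact h2
    · intro h
      show Multiplicative.ofAdd ((M : Matrix (Fin 2) (Fin 2) K).mulVec (Multiplicative.toAdd (c.ψ v))) = 1
      rw [h]
      show Multiplicative.ofAdd ((M : Matrix (Fin 2) (Fin 2) K).mulVec 0) = 1
      rw [Matrix.mulVec_zero]
      rfl
  have heq : ∀ (e : c.E) (v : V), Multiplicative.toAdd (ψ' ((e : MulAut V) v)) =
      ((ρ' e : Matrix.SpecialLinearGroup (Fin 2) K) : Matrix (Fin 2) (Fin 2) K).mulVec (Multiplicative.toAdd (ψ' v)) := by
    intro e v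
    rw [hψ', hψ', c.ψ_eq, hρ', Matrix.mulVec_mulVec, Matrix.mulVec_mulVec, Matrix.SpecialLinearGroup.coe_mul,
      Matrix.SpecialLinearGroup.coe_mul, Matrix.mul_assoc, hinvM, Matrix.mul_one]
  have hz' : Multiplicative.toAdd (ψ' z) = ![1, 0] := by rw [hψ', hM]
  -- elements of `A`
  have hfix : ∀ e : c.E, (e : MulAut V) ∈ autInducedBy (cj x V) V → ∀ w : V, (w : Ω) ∈ cj x V →
      (e : MulAut V) w = w := by
    intro e he w hw
    obtain ⟨g, hg, h1⟩ := (mem_autInducedBy_iff _ _ _).1 he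
    apply Subtype.ext
    rw [h1 w, comm_V' c hg hw]
    group
  have hA1 : ∀ e : c.E, (e : MulAut V) ∈ autInducedBy (cj x V) V →
      (ρ' e : Matrix (Fin 2) (Fin 2) K) 0 0 = 1 ∧ (ρ' e : Matrix (Fin 2) (Fin 2) K) 1 0 = 0 := by
    intro e he
    have h1 := heq e z
    rw [hfix e he z hz, hz'] at h1
    have h2 := congrFun h1 0
    have h3 := congrFun h1 1
    simp [Matrix.mulVec, dotProduct, Fin.sum_univ_two] at h2 h3
    exact ⟨h2.symm, h3.symm⟩
  have hcard2 := two_le_card K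
  -- a nontrivial element of `A`
  have hAe : ∃ e : c.E, (e : MulAut V) ∈ autInducedBy (cj x V) V ∧ e ≠ 1 := by
    have h1 : 1 < Nat.card (autInducedBy (cj x V) V) := by rw [c.A_card]; omega
    have : Finite (autInducedBy (cj x V) V) := Nat.finite_of_card_ne_zero (by omega)
    have hnt : Nontrivial (autInducedBy (cj x V) V) := Finite.one_lt_card_iff_nontrivial.1 h1
    obtain ⟨a, ha⟩ := exists_ne (1 : autInducedBy (cj x V) V)
    refine ⟨⟨a, c.A_le a.2⟩, a.2, ?_⟩
    intro h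
    apply ha
    apply Subtype.ext
    have h2 : ((⟨a, c.A_le a.2⟩ : c.E) : MulAut V) = ((1 : c.E) : MulAut V) := by rw [h]
    exact h2
  obtain ⟨e₀, he₀, he₀1⟩ := hAe
  have hb : (ρ' e₀ : Matrix (Fin 2) (Fin 2) K) 0 1 ≠ 0 := by
    intro h01
    apply he₀1
    obtain ⟨h00, h10⟩ := hA1 e₀ he₀
    have hdet := (ρ' e₀).2
    rw [Matrix.det_fin_two] at hdet
    have h11 : (ρ' e₀ : Matrix (Fin 2) (Fin 2) K) 1 1 = 1 := by
      have : (ρ' e₀ : Matrix (Fin 2) (Fin 2) K) 0 0 * (ρ' e₀ : Matrix (Fin 2) (Fin 2) K) 1 1 -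
        (ρ' e₀ : Matrix (Fin 2) (Fin 2) K) 0 1 * (ρ' e₀ : Matrix (Fin 2) (Fin 2) K) 1 0 = 1 := hdet
      rw [h00, h10] at this
      simpa using this
    have h1 : ρ' e₀ = 1 := by
      ext i j
      fin_cases i <;> fin_cases j
      · exact h00
      · exact h01
      · exact h10
      · exact h11
    exact ρ'.injective (h1.trans (map_one ρ').symm)
  have hZ1 : ∀ v : V, (v : Ω) ∈ cj x V → Multiplicative.toAdd (ψ' v) 1 = 0 := by
    intro v hv
    have h1 := heq e₀ v
    rw [hfix e₀ he₀ v hv] at h1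
    have h2 := congrFun h1 0
    obtain ⟨h00, h10⟩ := hA1 e₀ he₀
    simp only [Matrix.mulVec, dotProduct, Fin.sum_univ_two, h00, one_mul] at h2
    have h3 : (ρ' e₀ : Matrix (Fin 2) (Fin 2) K) 0 1 * Multiplicative.toAdd (ψ' v) 1 = 0 := by
      have h4 : Multiplicative.toAdd (ψ' v) 0 + 0 = Multiplicative.toAdd (ψ' v) 0 +
        (ρ' e₀ : Matrix (Fin 2) (Fin 2) K) 0 1 * Multiplicative.toAdd (ψ' v) 1 := by rw [add_zero]; exact h2
      exact (add_left_cancel h4).symm
    exact (mul_eq_zero.1 h3).resolve_left hb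
  -- the kernel of the second coordinate
  have hcsurj : Function.Surjective (coordHom ψ' 1) := by
    intro y
    obtain ⟨v, hv⟩ := hsurj (Multiplicative.ofAdd ![0, Multiplicative.toAdd y])
    refine ⟨v, ?_⟩
    show Multiplicative.ofAdd (Multiplicative.toAdd (ψ' v) 1) = y
    rw [hv]
    rfl
  have hkc : Nat.card (coordHom ψ' 1).ker * Fintype.card K = Nat.card V := by
    have h2 := (coordHom ψ' 1).ker.card_mul_index
    rw [Subgroup.index_ker, MonoidHom.range_eq_top.2 hcsurj, Subgroup.card_top] at h2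
    have h3 : Nat.card (Multiplicative K) = Fintype.card K := by
      rw [← Nat.card_eq_fintype_card]
      rfl
    rw [h3] at h2
    exact h2
  have hZle : (V ⊓ cj x V).subgroupOf V ≤ (coordHom ψ' 1).ker := by
    intro v hv
    rw [MonoidHom.mem_ker]
    have := hZ1 v hv.2
    show Multiplicative.ofAdd (Multiplicative.toAdd (ψ' v) 1) = 1
    rw [this]
    rfl
  have hZcard : Nat.card ((V ⊓ cj x V).subgroupOf V) = Nat.card (coordHom ψ' 1).ker := by
    have h3 : Nat.card ((V ⊓ cj x V).subgroupOf V) = Nat.card ↥(V ⊓ cj x V) :=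
      Nat.card_congr (Subgroup.subgroupOfEquivOfLe inf_le_left).toEquiv
    have h4 := card_V' c
    rw [h3]
    apply Nat.eq_of_mul_eq_mul_left (show 0 < Fintype.card K by omega)
    rw [h4, ← hkc, mul_comm]
  have hZeq : (V ⊓ cj x V).subgroupOf V = (coordHom ψ' 1).ker :=
    Subgroup.eq_of_le_of_card_ge hZle hZcard.ge
  refine ⟨⟨ρ', ψ', hsurj, hker, heq, ?_, ?_⟩⟩
  · intro v
    refine ⟨hZ1 v, fun h => ?_⟩
    have h1 : v ∈ (coordHom ψ' 1).ker := by
      rw [MonoidHom.mem_ker]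
      show Multiplicative.ofAdd (Multiplicative.toAdd (ψ' v) 1) = 1
      rw [h]
      rfl
    rw [← hZeq] at h1
    exact (Subgroup.mem_subgroupOf.1 h1).2
  · intro e
    refine ⟨hA1 e, ?_⟩
    rintro ⟨h00, h10⟩
    -- counting
    let f : {e : c.E // (ρ' e : Matrix (Fin 2) (Fin 2) K) 0 0 = 1 ∧ (ρ' e : Matrix (Fin 2) (Fin 2) K) 1 0 = 0} → K :=
      fun e => (ρ' e.1 : Matrix (Fin 2) (Fin 2) K) 0 1
    have hf : Function.Injective f := by
      rintro ⟨e₁, h1, h2⟩ ⟨e₂, h3, h4⟩ h5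
      have h5' : (ρ' e₁ : Matrix (Fin 2) (Fin 2) K) 0 1 = (ρ' e₂ : Matrix (Fin 2) (Fin 2) K) 0 1 := h5
      apply Subtype.ext
      show e₁ = e₂
      apply ρ'.injective
      have hd : ∀ e : c.E, (ρ' e : Matrix (Fin 2) (Fin 2) K) 0 0 = 1 → (ρ' e : Matrix (Fin 2) (Fin 2) K) 1 0 = 0 →
          (ρ' e : Matrix (Fin 2) (Fin 2) K) 1 1 = 1 := by
        intro e ha hb
        have hdet := (ρ' e).2
        rw [Matrix.det_fin_two] at hdet
        have : (ρ' e : Matrix (Fin 2) (Fin 2) K) 0 0 * (ρ' e : Matrix (Fin 2) (Fin 2) K) 1 1 -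
          (ρ' e : Matrix (Fin 2) (Fin 2) K) 0 1 * (ρ' e : Matrix (Fin 2) (Fin 2) K) 1 0 = 1 := hdet
        rw [ha, hb] at this
        simpa using this
      ext i j
      fin_cases i <;> fin_cases j
      · exact h1.trans h3.symm
      · exact h5'
      · exact h2.trans h4.symm
      · exact (hd e₁ h1 h2).trans (hd e₂ h3 h4).symm
    let g : autInducedBy (cj x V) V →
        {e : c.E // (ρ' e : Matrix (Fin 2) (Fin 2) K) 0 0 = 1 ∧ (ρ' e : Matrix (Fin 2) (Fin 2) K) 1 0 = 0} :=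
      fun a => ⟨⟨a, c.A_le a.2⟩, hA1 _ a.2⟩
    have hg : Function.Injective g := by
      intro a b hab
      exact Subtype.ext (congrArg (fun y => ((y.1 : c.E) : MulAut V)) hab)
    have hfg : Function.Bijective (f ∘ g) := by
      have : Finite (autInducedBy (cj x V) V) := Nat.finite_of_card_ne_zero (by rw [c.A_card]; omega)
      rw [Nat.bijective_iff_injective_and_card]
      refine ⟨hf.comp hg, ?_⟩
      rw [c.A_card, Nat.card_eq_fintype_card]
    obtain ⟨a, ha⟩ := hfg.2 (f ⟨e, h00, h10⟩)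
    have h1 : g a = ⟨e, h00, h10⟩ := hf ha
    have h2 : ((a : MulAut V)) = (e : MulAut V) := congrArg (fun y => ((y.1 : c.E) : MulAut V)) h1
    rw [← h2]
    exact a.2

end conf

end Cfsg.Agent.H55.HM
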